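import Mathlib
import Cfsg.Agent.Lib.Char.Clifford
import Cfsg.Agent.Lib.PGroup.Basic
import Cfsg.Agent.Lib.SnRep.Alt

/-!
Irreducible characters of degree `p` of Sylow subgroups of symmetric and alternating groups.
-/

set_option autoImplicit false
set_option linter.unusedSectionVars false
set_option linter.style.haveILetI false

namespace H33.Sn

open Finset Equiv Cfsg
open scoped Nat

variable {p w : ℕ} [hp : Fact p.Prime]

/-- There is an irreducible character of degree `p`. -/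
def HasDeg (p : ℕ) (R : Type*) [Group R] : Prop := ∃ ψ : IrrCharacter R, charDegree ψ.1 = p

lemma HasDeg.of_surj {R R' : Type*} [Group R] [Group R'] (f : R →* R') (hf : Function.Surjective f)
    (h : HasDeg p R') : HasDeg p R := by
  obtain ⟨ψ, hψ⟩ := h
  exact ⟨⟨fun g => ψ.1 (f g), H6.isIrrCharacter_comp_surjective f hf ψ.2⟩, by
    simpa [charDegree] using hψ⟩

lemma HasDeg.of_equiv {R R' : Type*} [Group R] [Group R'] (f : R ≃* R') (h : HasDeg p R') :
    HasDeg p R := h.of_surj f.toMonoidHom f.surjective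

lemma mul_mem_alt {Ω : Type*} [Fintype Ω] [DecidableEq Ω] {g h : Perm Ω}
    (hg : g ∉ alternatingGroup Ω) (hh : h ∉ alternatingGroup Ω) : g * h ∈ alternatingGroup Ω := by
  rw [Perm.mem_alternatingGroup] at *
  rw [map_mul, (Int.units_eq_one_or _).resolve_left hg, (Int.units_eq_one_or _).resolve_left hh]
  simp

theorem hasDeg_of_cocycle {R W : Type*} [Group R] [Finite R] [Fintype W] [DecidableEq W]
    (hR : IsPGroup p R) (σ : R →* Perm W) (a : R → W → ZMod p)
    (ha : ∀ g h i, a (g * h) i = a g (σ h i) + a h i) {i₀ : W} {r₀ : R} (h0 : σ r₀ i₀ ≠ i₀) {q : R}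
    (hq : σ q = 1) (h1 : a q i₀ ≠ 0) (h2 : ∀ r, σ r i₀ ≠ i₀ → a q (σ r i₀) = 0) : HasDeg p R := by
  classical
  letI := Fintype.ofFinite R
  obtain ⟨H, hK, hN, hi, -⟩ := H5.exists_le_normal_index_eq hR
    (K := (MulAction.stabilizer (Perm W) i₀).comap σ) fun h => h0 (h.ge (Subgroup.mem_top r₀))
  let O : Finset W := {i | ∃ h ∈ H, σ h i₀ = i}
  have a1 : ∀ i, a 1 i = 0 := fun i => by simpa using ha 1 1 i
  let lam : H →* Multiplicative (ZMod p) :=
    { toFun := fun h => Multiplicative.ofAdd (∑ i ∈ O, a h i)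
      map_one' := by simp [a1]
      map_mul' := fun g h => by
        simp only [Subgroup.coe_mul, ha, sum_add_distrib, ofAdd_add, mul_left_inj,
          EmbeddingLike.apply_eq_iff_eq]
        refine sum_equiv (σ h) (fun i => ?_) fun _ _ => rfl
        simp only [O, mem_filter, mem_univ, true_and]
        constructor
        · rintro ⟨k, hk, rfl⟩
          exact ⟨h * k, H.mul_mem h.2 hk, by simp⟩
        · rintro ⟨k, hk, e⟩
          exact ⟨h⁻¹ * k, H.mul_mem (H.inv_mem h.2) hk, by simp [e]⟩ }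
  let μ : H →* ℂˣ := (Circle.toUnits.comp (ZMod.toCircle (N := p)).toMonoidHom).comp lam
  have hθ := H6.isIrrCharacter_hom μ
  refine ⟨⟨_, (H7.isIrr_indFun_iff_inertia_le hθ).mpr fun g hg => ?_⟩, by
    simp [charDegree, H7.indFun_one, hi]⟩
  by_contra hc
  have hq' : q ∈ H := hK (by simp [hq])
  have e1 : μ ⟨g * q * g⁻¹, hN.conj_mem q hq' g⟩ = μ ⟨q, hq'⟩ := Units.ext (congrFun hg ⟨q, hq'⟩)
  have e2 : ∑ i ∈ O, a (g * q * g⁻¹) i = ∑ i ∈ O, a q i :=
    ZMod.injective_toCircle (Circle.coe_injective (congrArg Units.val e1))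
  rw [sum_eq_single_of_mem i₀ (by simpa [O] using ⟨1, H.one_mem, by simp⟩) (f := fun i => a q i),
    sum_eq_zero] at e2
  · exact h1 e2.symm
  · intro i hi
    obtain ⟨h, hh, rfl⟩ := (mem_filter.mp hi).2
    have e3 := ha g g⁻¹ (σ h i₀)
    rw [mul_inv_cancel, a1] at e3
    have e4 : σ g⁻¹ (σ h i₀) = σ (g⁻¹ * h) i₀ := by simp
    rw [ha, ha, hq, Perm.one_apply, add_right_comm, ← e3, zero_add, e4]
    refine h2 _ fun e => hc ?_
    simpa using H.mul_mem hh (H.inv_mem (hK (show g⁻¹ * h ∈ _ from e)))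
  · intro i hi hne
    obtain ⟨h, -, rfl⟩ := (mem_filter.mp hi).2
    exact h2 h hne

/-- The centralizer of the product of `w` disjoint `p`-cycles. -/
abbrev CU (w p : ℕ) [Fact p.Prime] : Subgroup (Perm (Fin w × ZMod p)) := Subgroup.centralizer {uu w p}

lemma CU_apply (g : CU w p) (i : Fin w) (x : ZMod p) :
    g.1 (i, x) = ((g.1 (i, 0)).1, x + (g.1 (i, 0)).2) := by
  have h1 : ∀ y, g.1 (y.1, y.2 + 1) = ((g.1 y).1, (g.1 y).2 + 1) := fun y =>
    (congrArg (fun f : Perm _ => f y) (Subgroup.mem_centralizer_singleton_iff.mp g.2))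
  obtain ⟨n, rfl⟩ := ZMod.natCast_zmod_surjective x
  induction n with
  | zero => simp
  | succ n ih => rw [Nat.cast_succ, h1 (i, n), ih, add_right_comm]

/-- The action on the cycles. -/
def sig : CU w p →* Perm (Fin w) := MonoidHom.toHomPerm
  { toFun := fun g i => (g.1 (i, 0)).1
    map_one' := rfl
    map_mul' := fun g h => funext fun i =>
      (congrArg Prod.fst (CU_apply g (h.1 (i, 0)).1 (h.1 (i, 0)).2) :) }

lemma sig_apply (g : CU w p) (i : Fin w) : sig g i = (g.1 (i, 0)).1 := rfl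

/-- The cocycle. -/
def coc (g : CU w p) (i : Fin w) : ZMod p := (g.1 (i, 0)).2

lemma coc_mul (g h : CU w p) (i : Fin w) : coc (g * h) i = coc g (sig h i) + coc h i :=
  (congrArg Prod.snd (CU_apply g _ (h.1 (i, 0)).2)).trans (add_comm _ _)

/-- The base group. -/
def trC : Multiplicative (Fin w → ZMod p) →* CU w p := (tr _ _).codRestrict _ fun a =>
  Subgroup.mem_centralizer_singleton_iff.mpr (by rw [uu, ← map_mul, ← map_mul, mul_comm])

lemma sig_trC (a : Multiplicative (Fin w → ZMod p)) : sig (trC a) = 1 := rfl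

lemma coc_trC (a : Multiplicative (Fin w → ZMod p)) (i : Fin w) : coc (trC a) i = a.toAdd i := by
  simp [coc, trC]

lemma ker_sig : (sig (w := w) (p := p)).ker = trC.range := by
  ext g
  constructor
  · intro h
    refine ⟨Multiplicative.ofAdd (coc g), Subtype.ext (Equiv.ext fun ⟨i, x⟩ => ?_)⟩
    rw [CU_apply g, ← sig_apply, MonoidHom.mem_ker.mp h]
    rfl
  · rintro ⟨a, rfl⟩
    rfl

lemma sig_surjective : Function.Surjective (sig (w := w) (p := p)) := fun s =>
  ⟨⟨Equiv.prodCongr s (Equiv.refl _), Subgroup.mem_centralizer_singleton_iff.mpr rfl⟩, rfl⟩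

lemma card_CU : Nat.card (CU w p) = w ! * p ^ w := by
  have h : Function.Injective (trC (w := w) (p := p)) := fun a b h =>
    tr_injective _ _ (congrArg Subtype.val h)
  rw [← (sig (w := w) (p := p)).ker.index_mul_card, Subgroup.index_ker,
    MonoidHom.range_eq_top.mpr sig_surjective, ker_sig,
    ← Nat.card_congr (MonoidHom.ofInjective h).toEquiv]
  simp [Fintype.card_perm]

lemma trC_mem (S : Sylow p (CU w p)) (a : Multiplicative (Fin w → ZMod p)) : trC a ∈ S := by
  refine IsPGroup.le_sylow_of_normal (N := (sig (w := w) (p := p)).ker) ?_ S (sig_trC a)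
  rw [ker_sig]
  rintro ⟨_, a, rfl⟩
  exact ⟨1, Subtype.ext (by simp [← map_pow, tr_pow])⟩

/-- A Sylow subgroup of the symmetric group inside the centralizer. -/
noncomputable def sylU (S : Sylow p (CU w p)) : Sylow p (Perm (Fin w × ZMod p)) :=
  Sylow.ofCard ((S : Subgroup _).map (CU w p).subtype) (by
    rw [Subgroup.card_map_of_injective (CU w p).subtype_injective, S.card_eq_multiplicity, card_CU,
      Nat.factorization_mul (Nat.factorial_ne_zero _) (pow_ne_zero _ hp.out.ne_zero),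
      Nat.card_eq_fintype_card, Fintype.card_perm, Fintype.card_prod,
      Fintype.card_fin, ZMod.card, mul_comm, Nat.factorization_factorial_mul hp.out]
    simp [hp.out.factorization_self])

lemma exists_moved (hw : p ≤ w) (S : Sylow p (CU w p)) : ∃ r ∈ S, ∃ i, sig r i ≠ i := by
  by_contra hc
  push Not at hc
  have h1 := (S.mapSurjective sig_surjective).card_eq_multiplicity
  have h2 : (S.mapSurjective sig_surjective : Subgroup (Perm (Fin w))) = ⊥ := by
    rw [eq_bot_iff]
    rintro _ ⟨r, hr, rfl⟩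
    exact Equiv.ext (hc r hr)
  rw [h2, Subgroup.card_bot, eq_comm, Nat.pow_eq_one, or_iff_right hp.out.ne_one] at h1
  have := (hp.out.dvd_iff_one_le_factorization (Nat.factorial_ne_zero w)).mp
    (hp.out.dvd_factorial.mpr hw)
  simp only [Nat.card_eq_fintype_card, Fintype.card_perm, Fintype.card_fin] at h1
  omega

theorem hasDeg_sylow (hw : p ≤ w) (S : Sylow p (Perm (Fin w × ZMod p))) : HasDeg p S := by
  obtain ⟨S₀⟩ : Nonempty (Sylow p (CU w p)) := inferInstance
  obtain ⟨r, hr, i, hi⟩ := exists_moved hw S₀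
  have := hasDeg_of_cocycle S₀.isPGroup' (sig.comp (S₀ : Subgroup (CU w p)).subtype)
    (fun g => coc g.1) (fun g h => coc_mul g.1 h.1) (i₀ := i) (r₀ := ⟨r, hr⟩) hi
    (q := ⟨trC (Multiplicative.ofAdd (Pi.single i 1)), trC_mem S₀ _⟩) (sig_trC _)
    (by simp [coc_trC]) fun r hr => by simp only [coc_trC, toAdd_ofAdd, Pi.single_eq_of_ne hr]
  exact this.of_equiv ((S.equiv (sylU S₀)).trans ((S₀ : Subgroup _).equivMapOfInjective _
    (CU w p).subtype_injective).symm)

theorem hasDeg_sylow' {Ω : Type*} [Fintype Ω] [DecidableEq Ω] (h : p * p ≤ Fintype.card Ω)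
    (S : Sylow p (Perm Ω)) : HasDeg p S := by
  obtain ⟨e⟩ : Nonempty (Fin (Fintype.card Ω / p) × ZMod p ⊕ Fin (Fintype.card Ω % p) ≃ Ω) :=
    Fintype.card_eq.mp (by simp [Nat.div_add_mod'])
  obtain ⟨T⟩ : Nonempty (Sylow p (Perm (Fin (Fintype.card Ω / p) × ZMod p))) := inferInstance
  let S' : Sylow p (Perm Ω) := Sylow.ofCard ((T : Subgroup _).map (el e)) (by
    rw [Subgroup.card_map_of_injective (el_injective e), card_sylow_wp, Nat.card_eq_fintype_card,
      Fintype.card_perm, add_comm, ← Nat.factorization_factorial_mul hp.out,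
      Nat.factorization_def _ hp.out, Nat.factorization_def _ hp.out,
      ← padicValNat_factorial_mul_add _ (Nat.mod_lt (Fintype.card Ω) hp.out.pos), Nat.div_add_mod])
  exact (hasDeg_sylow ((Nat.le_div_iff_mul_le hp.out.pos).mpr h) T).of_equiv
    ((S.equiv S').trans ((T : Subgroup _).equivMapOfInjective _ (el_injective e)).symm)

theorem hasDeg_alt_two (hw : 3 ≤ w) : ∃ S : Sylow 2 (Perm (Fin w × ZMod 2)),
    HasDeg 2 ((S : Subgroup (Perm (Fin w × ZMod 2))) ⊓ alternatingGroup _ : Subgroup _) := by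
  obtain ⟨S₀⟩ : Nonempty (Sylow 2 (CU w 2)) := inferInstance
  refine ⟨sylU S₀, ?_⟩
  set R : Subgroup (Perm (Fin w × ZMod 2)) := (sylU S₀ : Subgroup _) ⊓ alternatingGroup _
  have hR : IsPGroup 2 R := (sylU S₀).isPGroup'.to_inf_left
  let f : R →* CU w 2 := Subgroup.inclusion (inf_le_left.trans (Subgroup.map_subtype_le _))
  have f1 : ∀ r, f r ∈ S₀ := by
    rintro ⟨_, ⟨r, hr, rfl⟩, -⟩
    exact hr
  have f2 : ∀ g ∈ S₀, g.1 ∈ alternatingGroup _ → ∃ r, f r = g := fun g h1 h2 =>
    ⟨⟨g.1, ⟨g, h1, rfl⟩, h2⟩, rfl⟩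
  have f3 : ∀ g ∈ S₀, ∃ r, sig (f r) = sig g := by
    intro g h1
    by_cases h2 : g.1 ∈ alternatingGroup _
    · obtain ⟨r, rfl⟩ := f2 g h1 h2
      exact ⟨r, rfl⟩
    · obtain ⟨r, hr⟩ := f2 (g * trC (Multiplicative.ofAdd (Pi.single ⟨0, by omega⟩ 1)))
        (mul_mem h1 (trC_mem S₀ _))
        (mul_mem_alt h2 (tr_single_notMem _))
      exact ⟨r, by rw [hr, map_mul, sig_trC, mul_one]⟩
  rcases hw.eq_or_lt with rfl | hw
  · obtain ⟨g, hg, i, hi⟩ := exists_moved (by omega) S₀
    obtain ⟨r, hr⟩ := f3 g hg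
    obtain ⟨j, hj⟩ : ∃ j, ∀ r, sig (f r) i ≠ j := by
      by_contra hc
      push Not at hc
      letI : MulAction R (Fin 3) := MulAction.compHom _ (sig.comp f)
      obtain ⟨n, hn⟩ := hR.card_orbit i
      rw [show MulAction.orbit R i = Set.univ from Set.eq_univ_of_forall hc] at hn
      rw [Nat.card_univ, Nat.card_eq_fintype_card, Fintype.card_fin] at hn
      rcases n with _ | n <;> omega
    have hij : i ≠ j := by simpa using hj 1
    obtain ⟨q, hq⟩ := f2 (trC (Multiplicative.ofAdd (Pi.single i 1)) *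
      trC (Multiplicative.ofAdd (Pi.single j 1))) (mul_mem (trC_mem S₀ _) (trC_mem S₀ _))
      (mul_mem_alt (tr_single_notMem _) (tr_single_notMem _))
    rw [← map_mul] at hq
    refine hasDeg_of_cocycle hR (sig.comp f) (fun g => coc (f g))
      (fun g h k => by rw [map_mul, coc_mul]; rfl) (i₀ := i) (r₀ := r) (hr ▸ hi) (q := q)
      (by rw [MonoidHom.comp_apply, hq, sig_trC]) (by rw [hq, coc_trC]; simp [hij]) fun r hr => ?_
    rw [MonoidHom.comp_apply] at hr ⊢
    simp only [hq, coc_trC, toAdd_mul, toAdd_ofAdd, Pi.add_apply, Pi.single_eq_of_ne hr,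
      Pi.single_eq_of_ne (hj r), add_zero]
  · refine (hasDeg_sylow' (by simpa using Nat.succ_le_of_lt hw)
      (S₀.mapSurjective sig_surjective)).of_surj ((sig.comp f).codRestrict
        (S₀.mapSurjective sig_surjective : Subgroup (Perm (Fin w))) fun r => ⟨f r, f1 r, rfl⟩) ?_
    rintro ⟨_, g, hg, rfl⟩
    obtain ⟨r, hr⟩ := f3 g hg
    exact ⟨r, Subtype.ext hr⟩

end H33.Sn
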