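import Mathlib
import Cfsg.Agent.Lib.SnRep.DegP

/-!
Characters of height one in blocks of symmetric and alternating groups.
-/

set_option autoImplicit false
set_option linter.unusedSectionVars false
set_option linter.style.haveILetI false
attribute [local irreducible] H33.instFieldF

namespace H33.Sn

open Finset Equiv Cfsg
open H35 (Over Covers cjI)
open H86 (cs)
open scoped Nat

variable {p w N : ℕ} [hp : Fact p.Prime] {M : Ideal AlgInt} [M.IsMaximal] {Ω Z : Type*} [Fintype Ω]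
  [DecidableEq Ω] [Fintype Z] [DecidableEq Z] {ρ b : Fin N → ℕ}

local notation "𝔄" => alternatingGroup Ω

lemma fact_add (n : ℕ) {r : ℕ} (hr : r < p) :
    ((p * n + r)!).factorization p = (n !).factorization p + n := by
  rw [← Nat.factorization_factorial_mul hp.out, Nat.factorization_def _ hp.out,
    Nat.factorization_def _ hp.out, padicValNat_factorial_mul_add _ hr]

lemma fact_succ (n : ℕ) :
    ((n + 1)!).factorization p = (n + 1).factorization p + (n !).factorization p := by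
  rw [Nat.factorial_succ, Nat.factorization_mul n.succ_ne_zero n.factorial_ne_zero]
  rfl

/-- A binomial coefficient with valuation one. -/
lemma exists_carry (m : ℕ) (hm : p ≤ m) (h : ¬ p ∣ m + 1) : ∃ a c, 0 < a ∧ 0 < c ∧ a + c = m ∧
    (m !).factorization p = (a !).factorization p + (c !).factorization p + 1 := by
  induction m using Nat.strong_induction_on with
  | _ m ih =>
  have hp2 := hp.out.two_le
  obtain ⟨q, r, hr, rfl⟩ : ∃ q r, r < p ∧ m = p * q + r :=
    ⟨_, _, Nat.mod_lt m hp.out.pos, (Nat.div_add_mod m p).symm⟩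
  obtain ⟨s, rfl⟩ : ∃ s, q = s + 1 := Nat.exists_eq_succ_of_ne_zero (by rintro rfl; omega)
  have hr' : r + 1 < p := lt_of_le_of_ne hr fun e => h ⟨s + 2, by rw [add_assoc, e]; ring⟩
  by_cases hq : p ∣ s + 1
  · obtain ⟨a, c, ha, hc, e, hv⟩ := ih (s + 1) (by nlinarith) (Nat.le_of_dvd s.succ_pos hq)
      fun h' => hp.out.not_dvd_one ((Nat.dvd_add_right hq).mp h')
    refine ⟨p * a + r, p * c + 0, by positivity, by positivity, by rw [← e]; ring, ?_⟩
    rw [fact_add _ hr, fact_add _ hr, fact_add _ hp.out.pos]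
    omega
  · refine ⟨r + 1, p * s + (p - 1), by omega, by omega, by rw [mul_add]; omega, ?_⟩
    rw [fact_add _ hr, fact_add _ (by omega), Nat.factorization_factorial_eq_zero_of_lt hr',
      fact_succ, Nat.factorization_eq_zero_of_not_dvd hq]
    omega

lemma single_jr (f : Fin N → ℕ) (r : ℕ) (t : Fin #{i | ρ i = r}) (m : ℕ) :
    (f + Pi.single (jr ρ r t) m) ∘ jr ρ r = f ∘ jr ρ r + Pi.single t m := by
  ext a
  simp [Pi.single_apply]

lemma single_jr_ne (f : Fin N → ℕ) {r s : ℕ} (h : s ≠ r) (t : Fin #{i | ρ i = r}) (m : ℕ) :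
    (f + Pi.single (jr ρ r t) m) ∘ jr ρ s = f ∘ jr ρ s := by
  ext a
  have : jr ρ s a ≠ jr ρ r t := fun e => h ((rho_jr s a).symm.trans (e ▸ rho_jr r t))
  simp [this]

lemma cc_comp_jr (r : ℕ) : cc ρ ∘ jr ρ r = fun a : Fin _ => (a : ℕ) := funext (cc_jr r)

lemma inj_of_jr (hρ : ∀ i, ρ i < p) (h : ∀ r, Function.Injective (b ∘ jr ρ r)) :
    Function.Injective (cfg p ρ b) := by
  intro i j e
  obtain ⟨e1, e2⟩ := (cfg_eq_iff hρ).mp e
  generalize hr : ρ j = r at e1
  obtain ⟨a, rfl⟩ := exists_jr e1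
  obtain ⟨c, rfl⟩ := exists_jr hr
  rw [h r (show (b ∘ jr ρ r) a = (b ∘ jr ρ r) c from e2)]

lemma inj_single {c : ℕ} (t : Fin c) {m : ℕ} (h : c ≤ t + m ∨ m = 0) :
    Function.Injective ((fun i : Fin c => (i : ℕ)) + Pi.single t m) := by
  intro i j e
  simp only [Pi.add_apply, Pi.single_apply] at e
  have := i.2
  have := j.2
  split_ifs at e <;> subst_vars <;> first | rfl | omega

lemma Dat.exists_mem (h : Dat p w ρ Ω Z) (hi : Function.Injective (cfg p ρ b))
    (hb : ∑ i, b i = w + ∑ i, cc ρ i) : ∃ χ ∈ JJ Ω p ρ w, IsCh χ.1 (cfg p ρ b) := by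
  obtain ⟨χ, hχ⟩ := exists_isCh (h.sum_cfg hb) hi
  obtain ⟨τ, h1, h2⟩ := exists_rs h.hρ hi
  exact ⟨χ, ⟨b ∘ τ, h2, (Equiv.sum_comp τ b).trans hb, cfg_comp h1 ▸ hχ.comp τ⟩, hχ⟩

/-- Two beads are moved. -/
lemma Dat.exists_two (h : Dat p w ρ Ω Z) (hB : IsPBlock M (JJ Ω p ρ w)) (t : Fin #{i | ρ i = 0})
    (t' : Fin #{i | ρ i = 1}) {m m' : ℕ} (e : m + m' = w) (hm : #{i | ρ i = 0} ≤ t + m)
    (hm' : #{i | ρ i = 1} ≤ t' + m' ∨ m' = 0) : ∃ χ ∈ JJ Ω p ρ w,
      IsCh χ.1 (cfg p ρ (cc ρ + Pi.single (jr ρ 0 t) m + Pi.single (jr ρ 1 t') m')) ∧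
      (blockHeight p (JJ Ω p ρ w) χ.1 : ℤ) + w + hv p ((fun i : Fin _ => (i : ℕ)) + Pi.single t m) +
        hv p ((fun i : Fin _ => (i : ℕ)) + Pi.single t' m') = blockDefect p (JJ Ω p ρ w) := by
  set b := cc ρ + Pi.single (jr ρ 0 t) m + Pi.single (jr ρ 1 t') m'
  have e0 : b ∘ jr ρ 0 = (fun i : Fin _ => (i : ℕ)) + Pi.single t m := by
    rw [single_jr_ne _ zero_ne_one, single_jr, cc_comp_jr]
  have e1 : b ∘ jr ρ 1 = (fun i : Fin _ => (i : ℕ)) + Pi.single t' m' := by
    rw [single_jr, single_jr_ne _ one_ne_zero, cc_comp_jr]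
  have e2 : ∀ r, r ≠ 0 → r ≠ 1 → b ∘ jr ρ r = fun i : Fin _ => (i : ℕ) := fun r h0 h1 => by
    rw [single_jr_ne _ h1, single_jr_ne _ h0, cc_comp_jr]
  have hi : Function.Injective (cfg p ρ b) := inj_of_jr h.hρ fun r => by
    by_cases h0 : r = 0
    · exact h0 ▸ e0 ▸ inj_single t (.inl hm)
    by_cases h1 : r = 1
    · exact h1 ▸ e1 ▸ inj_single t' hm'
    · exact e2 r h0 h1 ▸ Fin.val_injective
  have hb : ∑ i, b i = w + ∑ i, cc ρ i := by
    simp only [b, Pi.add_apply, sum_add_distrib, sum_pi_single', mem_univ, if_true]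
    omega
  obtain ⟨χ, h1, h2⟩ := h.exists_mem hi hb
  refine ⟨χ, h1, h2, ?_⟩
  rw [← h.height hB h1 hi hb h2, hv_cfg h.hρ hi hb, sum_eq_add_of_mem 0 1 (by simp [hp.out.pos])
    (by simp [hp.out.one_lt]) zero_ne_one fun r _ hr => by rw [e2 r hr.1 hr.2, hv_id], e0, e1]
  ring

/-- Only the top beads are moved. -/
def Top (ρ b : Fin N → ℕ) : Prop := ∀ i j, i < j → ρ i = ρ j → b i = cc ρ i

lemma Top.rs (h : Top ρ b) (hb : ∀ i, cc ρ i ≤ b i) : RS ρ b := fun i j hij e =>
  (h i j hij e).trans_lt ((rs_cc ρ i j hij e).trans_le (hb j))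

lemma Top.lower_rs (h : Top ρ b) (hb : ∀ i, cc ρ i ≤ b i) {i : Fin N} {x : ℕ} (hx : x ≤ b i)
    (hc : cc ρ i ≤ x) : RS ρ (Function.update b i x) := by
  refine Top.rs (fun j l hjl e => ?_) fun j => ?_
  all_goals rcases eq_or_ne j i with rfl | hj
  · have := h j l hjl e
    simp only [Function.update_self]
    omega
  · simp [hj, h j l hjl e]
  · simpa using hc
  · simp [hj, hb]

lemma Top.not_inj (h : Top ρ b) {i : Fin N} {x : ℕ} (hc : x < cc ρ i) :
    ¬ Function.Injective (cfg p ρ (Function.update b i x)) := by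
  generalize hr : ρ i = r
  obtain ⟨a, rfl⟩ := exists_jr hr
  rw [cc_jr] at hc
  have h1 : jr ρ r ⟨x, hc.trans a.2⟩ < jr ρ r a := (jr ρ r).strictMono hc
  refine fun hi => h1.ne (hi ?_)
  simp only [cfg, Function.update_of_ne h1.ne, h _ _ h1 ((rho_jr _ _).trans hr.symm), cc_jr, rho_jr,
    Function.update_self]

lemma Top.add_single (h : Top ρ b) {r : ℕ} {t : Fin #{i | ρ i = r}} (ht : #{i | ρ i = r} = t + 1)
    (m : ℕ) : Top ρ (b + Pi.single (jr ρ r t) m) := by
  intro i j hij e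
  rw [Pi.add_apply, Pi.single_eq_of_ne, add_zero, h i j hij e]
  rintro rfl
  obtain ⟨a, rfl⟩ := exists_jr (e.symm.trans (rho_jr r t))
  have := (jr ρ r).lt_iff_lt.mp hij
  have := a.2
  omega

/-- A character that does not vanish on an odd permutation. -/
lemma Dat.exists_odd (h : Dat 2 w ρ Ω Z) (hw : Even w) (h1 : Top ρ b) (h2 : ∀ i, cc ρ i ≤ b i)
    (hb : ∑ i, b i = w + ∑ i, cc ρ i) {i : Fin N} (hi : cc ρ i + 2 ≤ b i) :
    ∃ g ∉ 𝔄, ch (cfg 2 ρ b) g ≠ 0 := by
  obtain ⟨v, rfl⟩ : ∃ v, w = v + 2 := Nat.exists_eq_add_of_le' (by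
    have := single_le_sum (f := fun j => b j - cc ρ j) (fun _ _ => Nat.zero_le _) (mem_univ i)
    rw [sum_tsub_distrib _ fun j _ => h2 j] at this
    omega)
  obtain ⟨e⟩ : Nonempty (ZMod 4 ⊕ (Fin v × ZMod 2 ⊕ Z) ≃ Ω) :=
    Fintype.card_eq.mp (by simp [h.hΩ]; ring)
  refine ⟨em e (Equiv.addRight 1, Perm.sumCongr (uu v 2) 1), ?_, ?_⟩
  · rw [Perm.mem_alternatingGroup, sign_em, Perm.sign_sumCongr, uu, sign_tr]
    have : Perm.sign (Equiv.addRight (1 : ZMod 4)) = -1 := by decide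
    simp [this, sign_addRight_two, ((Nat.even_add.mp hw).mpr even_two).neg_one_pow]
  · obtain ⟨κ, hκ⟩ := h.exists_core
    obtain ⟨s, -, hs⟩ := hκ.exists
    have h3 : ch (cfg 2 ρ (cc ρ)) (1 : Perm Z) ≠ 0 := fun h0 =>
      H84.irr_one_ne_zero κ (by simp [hs, h0])
    have h4 : ∀ j, ∃ m : ℕ, (j = i → 0 < m) ∧ (if 2 ≤ b j then ch (cfg 2 ρ (Function.update b j
        (b j - 2))) (Perm.sumCongr (uu v 2) (1 : Perm Z)) else 0) =
          m * ch (cfg 2 ρ (cc ρ)) (1 : Perm Z) := by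
      intro j
      by_cases hj : cc ρ j + 2 ≤ b j
      · obtain ⟨m, m1, m2⟩ := ch_uu (Ω' := Z) h.hρ v _ (h1.lower_rs h2 (i := j) (x := b j - 2)
          (by omega) (by omega)) (by have := sum_update_sub (b := b) j (k := 2) (by omega); omega)
        exact ⟨m, fun _ => m1, by rw [if_pos (by omega), m2]⟩
      · refine ⟨0, by rintro rfl; omega, ?_⟩
        split_ifs
        · rw [ch_eq_zero (h1.not_inj (by omega))]; simp
        · simp
    choose m m1 m2 using h4
    rw [em_apply, ch, cf_permCongr, ← ch, ch_cfg_cycle h.hρ (sameCycle_addRight 4) (k := 2) (by simp)]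
    simp only [m2, ← sum_mul, ← Nat.cast_sum]
    exact mul_ne_zero (Nat.cast_ne_zero.mpr
      (sum_pos' (fun _ _ => Nat.zero_le _) ⟨i, mem_univ _, m1 i rfl⟩).ne') h3

theorem Dat.exists_height_one (hM : IsPModular p M) (h : Dat p w ρ Ω Z)
    (hB : IsPBlock M (JJ Ω p ρ w)) (hw : p ≤ w) : ∃ χ ∈ JJ Ω p ρ w,
      blockHeight p (JJ Ω p ρ w) χ.1 = 1 ∧ (p = 2 → 3 ≤ w → ∃ g ∉ 𝔄, χ.1 g ≠ 0) := by
  obtain ⟨e⟩ := h.exists_equiv
  obtain ⟨S⟩ : Nonempty (Sylow p (Perm (Fin w × ZMod p))) := inferInstance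
  have hd := (h.defect hM hB e S).2
  have b0 := h.big 0 hp.out.pos
  have b1 := h.big 1 hp.out.one_lt
  have hp2 := hp.out.two_le
  by_cases hc : p ∣ w + 1
  · obtain ⟨m, rfl⟩ : ∃ m, w = m + 1 := Nat.exists_eq_succ_of_ne_zero (by omega)
    have h1 : ¬ p ∣ m + 1 := fun h' => hp.out.not_dvd_one ((Nat.dvd_add_right h').mp hc)
    obtain ⟨a, c, ha, hc', rfl, hv⟩ := exists_carry m (by
      obtain ⟨k, hk⟩ := hc
      rcases k with _ | _ | k <;> nlinarith) h1
    obtain ⟨χ, a1, -, a2⟩ := h.exists_two hB ⟨#{i | ρ i = 0} - 1 - a, by omega⟩ ⟨0, by omega⟩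
      (add_zero _) (by simp only; omega) (.inr rfl)
    rw [hv_single _ (a := a) (by simp only; omega) (by omega), Pi.single_zero, add_zero, hv_id, hd,
      fact_succ, show a + c + 1 - 1 - a = c by omega] at a2
    refine ⟨χ, a1, by omega, ?_⟩
    rintro rfl -
    exact ⟨_, uu_notMem e (Nat.odd_iff.mpr (by omega)), h.val_ne_zero e a1⟩
  · obtain ⟨a, c, ha, hc', rfl, hv⟩ := exists_carry w hw hc
    obtain ⟨χ, a1, a3, a2⟩ := h.exists_two hB ⟨#{i | ρ i = 0} - 1, by omega⟩
      ⟨#{i | ρ i = 1} - 1, by omega⟩ rfl (by simp only; omega) (.inl (by simp only; omega))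
    rw [hv_single _ (a := 0) (by simp only; omega) ha, hv_single _ (a := 0) (by simp only; omega) hc',
      hd] at a2
    have f1 := fact_succ (p := p) (a - 1)
    have f2 := fact_succ (p := p) (c - 1)
    rw [Nat.sub_add_cancel ha] at f1
    rw [Nat.sub_add_cancel hc'] at f2
    simp only [Nat.factorial_zero, Nat.factorization_one, Finsupp.coe_zero, Pi.zero_apply,
      tsub_zero] at a2
    refine ⟨χ, a1, by omega, ?_⟩
    rintro rfl h3
    obtain ⟨s, s1, s2⟩ := a3.exists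
    obtain ⟨i, hi⟩ : ∃ i, cc ρ i + 2 ≤ (cc ρ + Pi.single (jr ρ 0 ⟨#{i | ρ i = 0} - 1, by omega⟩) a +
        Pi.single (jr ρ 1 ⟨#{i | ρ i = 1} - 1, by omega⟩) c : Fin N → ℕ) i := by
      rcases le_or_gt 2 a with h4 | h4
      · exact ⟨jr ρ 0 ⟨#{i | ρ i = 0} - 1, by omega⟩, by simp; omega⟩
      · exact ⟨jr ρ 1 ⟨#{i | ρ i = 1} - 1, by omega⟩, by simp; omega⟩
    obtain ⟨g, g1, g2⟩ := h.exists_odd (Nat.even_iff.mpr (by omega))
      ((Top.add_single (fun _ _ _ _ => rfl) (by simp only; omega) a).add_single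
        (by simp only; omega) c) (fun i => by simp [add_assoc]) (by
          simp only [Pi.add_apply, sum_add_distrib, sum_pi_single', mem_univ, if_true]
          omega) hi
    exact ⟨g, g1, by simpa [s2, g2] using left_ne_zero_of_mul_eq_one s1⟩

lemma deg_cases {χ : IrrCharacter (Perm Ω)} {θ : IrrCharacter 𝔄} (h : Over χ.1 θ.1) :
    charDegree χ.1 = charDegree θ.1 ∨
      (charDegree χ.1 = 2 * charDegree θ.1 ∧ ∀ g ∉ 𝔄, χ.1 g = 0) := by
  obtain ⟨t, ht⟩ := exists_rep (Ω := Ω)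
  refine (res_cases ht h).imp (fun h1 => ?_) fun ⟨h1, h2⟩ => ⟨?_, h2⟩
  · rw [← h1]; rfl
  · have h3 : χ.1 1 = θ.1 1 + (cjI t θ).1 1 := congrFun h1 1
    rw [irr_one_eq_charDegree, irr_one_eq_charDegree, irr_one_eq_charDegree,
      H35.charDegree_cjI, ← two_mul] at h3
    exact_mod_cast h3

lemma comm_of_card {G : Type*} [Group G] {d : ℕ} (hd : d ≤ 2) (h : Nat.card G = p ^ d) :
    IsMulCommutative G := by
  interval_cases d
  · have := (Nat.card_eq_one_iff_unique.mp h).1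
    exact ⟨⟨fun _ _ => Subsingleton.elim _ _⟩⟩
  · exact (isCyclic_of_prime_card (h.trans (pow_one p))).isMulCommutative
  · exact IsPGroup.isMulCommutative_of_card_eq_prime_sq h

theorem alt_height (hM : IsPModular p M) {b : Set (IrrCharacter 𝔄)} (hb : IsPBlock M b)
    {D : Subgroup 𝔄} (hD : IsDefectGroup p M b D) :
    ((∃ θ ∈ b, blockHeight p b θ.1 = 1) ∧ HasDeg p D) ∨
      ((∀ θ ∈ b, blockHeight p b θ.1 = 0) ∧ IsMulCommutative D) := by
  obtain ⟨N, w, z, ρ, e, h, hB, hc, hS⟩ := exists_alt hM hb hD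
  have iso : ∀ S : Sylow p (Perm (Fin w × ZMod p)), Nonempty (D ≃* ((S : Subgroup (Perm (Fin w ×
      ZMod p))) ⊓ alternatingGroup _ : Subgroup _)) := fun S => by
    obtain ⟨k, hk⟩ := hS S
    exact ⟨(D.equivMapOfInjective _ (𝔄).subtype_injective).trans ((MulEquiv.subgroupCongr hk).trans
      ((Subgroup.equivMapOfInjective _ _ (MulAut.conj k).injective).symm.trans
        (Subgroup.equivMapOfInjective _ _ (el_injective e)).symm))⟩
  obtain ⟨S, hQ⟩ := (isPGroup_tr (p := p) (w := w)).exists_le_sylow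
  obtain ⟨f⟩ := iso S
  have c0 := defect_card hM hb hD
  have c1 := c0.symm.trans (Nat.card_congr f.toEquiv)
  have hd := (h.defect hM hB e S).2
  have ci := (𝔄).index_mul_card
  have cA : Nat.card 𝔄 ≠ 0 := Nat.card_pos.ne'
  by_cases h2 : p = 2
  · subst h2
    have c2 : w ≠ 0 → blockDefect 2 b + 1 = w + (w !).factorization 2 := fun hw0 => by
      have := card_inf_alt (hQ ⟨_, rfl⟩) (tr_single_notMem ⟨0, Nat.pos_of_ne_zero hw0⟩)
      rw [← c1, card_sylow_wp, ← pow_succ] at this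
      exact Nat.pow_right_injective le_rfl this
    rcases le_or_gt 3 w with hw | hw
    · obtain ⟨χ, a1, a2, a3⟩ := h.exists_height_one hM hB (by omega)
      obtain ⟨g, g1, g2⟩ := a3 rfl hw
      obtain ⟨θ, t1, t2⟩ := hc.exists_under hB hb a1
      obtain ⟨S', hS'⟩ := hasDeg_alt_two hw
      refine .inl ⟨⟨θ, t1, ?_⟩, hS'.of_equiv (iso S').some⟩
      have d1 := degree_factorization_add (p := 2) hB a1
      have d2 := degree_factorization_add (p := 2) hb t1
      rw [(deg_cases t2).resolve_right fun h => g2 (h.2 g g1), ← ci, index_alt.resolve_left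
        fun h => g1 (Subgroup.index_eq_one.mp h ▸ trivial), Nat.factorization_mul two_ne_zero cA,
        Finsupp.add_apply, Nat.prime_two.factorization_self] at d1
      have := c2 (by omega)
      omega
    · have hd2 : blockDefect 2 b ≤ 2 := by
        interval_cases w
        · rw [Nat.card_eq_one_iff_unique.mpr ⟨inferInstance, inferInstance⟩] at c1
          simp at c1
          omega
        · have := c2 one_ne_zero
          simp at this
          omega
        · have := c2 two_ne_zero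
          rw [Nat.factorial_two, Nat.prime_two.factorization_self] at this
          omega
      refine .inr ⟨fun θ hθ => ?_, comm_of_card hd2 c0⟩
      by_contra h0
      have := Fintype.ofFinite 𝔄
      have := H84.height_add_two_le hM hb hθ h0
      omega
  have hS' := inf_eq_left.mpr (le_alt h2 S.isPGroup')
  have f2 : (2 : ℕ).factorization p = 0 := Nat.factorization_eq_zero_of_not_dvd fun h =>
    h2 ((Nat.prime_dvd_prime_iff_eq hp.out Nat.prime_two).mp h)
  rw [hS', card_sylow_wp] at c1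
  have c2 := Nat.pow_right_injective hp.out.two_le c1
  have tr' : ∀ χ ∈ JJ Ω p ρ w, ∀ θ ∈ b, Over χ.1 θ.1 →
      blockHeight p b θ.1 = blockHeight p (JJ Ω p ρ w) χ.1 := fun χ a1 θ t1 t2 => by
    have d1 := degree_factorization_add (p := p) hB a1
    have d2 := degree_factorization_add (p := p) hb t1
    have d3 : (charDegree χ.1).factorization p = (charDegree θ.1).factorization p := by
      rcases deg_cases t2 with h | ⟨h, -⟩ <;> rw [h]
      rw [Nat.factorization_mul two_ne_zero (charDegree_ne_zero θ), Finsupp.add_apply, f2, zero_add]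
    have d4 : (Nat.card (Perm Ω)).factorization p = (Nat.card 𝔄).factorization p := by
      rcases index_alt (Ω := Ω) with h | h <;> rw [← ci, h]
      · rw [one_mul]
      · rw [Nat.factorization_mul two_ne_zero cA, Finsupp.add_apply, f2, zero_add]
    omega
  rcases le_or_gt p w with hw | hw
  · obtain ⟨χ, a1, a2, -⟩ := h.exists_height_one hM hB hw
    obtain ⟨θ, t1, t2⟩ := hc.exists_under hB hb a1
    exact .inl ⟨⟨θ, t1, (tr' χ a1 θ t1 t2).trans a2⟩,
      (hasDeg_sylow hw S).of_equiv (f.trans (MulEquiv.subgroupCongr hS'))⟩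
  · rw [Nat.factorization_factorial_eq_zero_of_lt hw] at hd
    refine .inr ⟨fun θ hθ => ?_, ?_⟩
    · obtain ⟨χ, a1, a2⟩ := exists_over_mem hM hB hb hc hθ
      obtain ⟨β, b1, b2, b3⟩ := id a1
      have h1 := h.height hB a1 (b1.inj h.hρ) b2 b3
      have h2 := (hv_cfg_le h.hρ (b1.inj h.hρ) b2).1
      have := tr' χ a1 θ hθ a2
      omega
    · have h1 : (tr (Fin w) (ZMod p)).range = S := Subgroup.eq_of_le_of_card_ge hQ (by
        rw [card_sylow_wp, Nat.factorization_factorial_eq_zero_of_lt hw,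
          ← Nat.card_congr (MonoidHom.ofInjective (tr_injective _ _)).toEquiv]
        simp)
      let g := (f.trans (MulEquiv.subgroupCongr (hS'.trans h1.symm))).trans
        (MonoidHom.ofInjective (tr_injective _ _)).symm
      exact ⟨⟨fun x y => g.injective (by rw [map_mul, map_mul, mul_comm])⟩⟩

end H33.Sn
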